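import Cfsg.Agent.Alg.CycloBig

/-!
# Large divisors of `p ^ a - 1` and `p ^ a + 1`
-/

set_option autoImplicit false

namespace Cfsg.CycBig

/-- `m` is large and made of primes `> 2a + 1`, or a power of a prime `r > a` prime to `p - 1`. -/
def Good2 (p a m : ℕ) : Prop :=
  a * (p - 3) + 1 < m ∧ (IsPiNumber {l | 2 * a + 1 < l} m ∨
    ∃ r, r.Prime ∧ a < r ∧ ¬ r ∣ p - 1 ∧ IsPiNumber {r} m)

/-- numerical check -/
def chk2 (p a D : ℕ) : Bool :=
  D % strip (2 * a + 1).factorial 5 D == 0 &&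
    Nat.gcd (strip (2 * a + 1).factorial 5 D) (2 * a + 1).factorial == 1 &&
    decide (a * (p - 3) + 1 < strip (2 * a + 1).factorial 5 D)

theorem good2_of_chk2 {p a D : ℕ} (h : chk2 p a D = true) : ∃ m, m ∣ D ∧ Good2 p a m := by
  simp only [chk2, Bool.and_eq_true, beq_iff_eq, decide_eq_true_eq] at h
  refine ⟨_, Nat.dvd_of_mod_eq_zero h.1.1, h.2, Or.inl fun l hl hd => ?_⟩
  by_contra hc
  have h1 : l ∣ (2 * a + 1).factorial := (hl.dvd_factorial).mpr (by simpa using hc)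
  exact hl.one_lt.ne' (Nat.eq_one_of_dvd_coprimes h.1.2 hd h1)

theorem chk2_all : ((List.range 649).all fun a => a < 5 ||
    [7, 11, 13, 17, 19, 23, 29, 31, 37, 41, 43, 47, 53, 59, 61, 67, 71, 73, 79].all fun p =>
      (p == 23 && a == 6 || chk2 p a (p ^ a - 1)) && chk2 p a (p ^ a + 1)) = true := by
  decide +kernel

theorem chk2_six : ((List.range 4000).all fun p => p < 80 || chk2 p 6 (p ^ 6 - 1)) = true := by
  decide +kernel

theorem prime_facts {p d l : ℕ} (hp : 1 < p) (hd : 1 < d) (hl : l.Prime)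
    (h : l ∣ natPiPart {l | l ≤ d}ᶜ (cyc d p)) : d < l ∧ d ∣ l - 1 ∧ ¬ l ∣ p - 1 := by
  have h1 : ¬ l ≤ d := isPiNumber_natPiPart _ _ l hl h
  have h2 : ¬ l ∣ d := fun h => h1 (Nat.le_of_dvd (by omega) h)
  have h0 := h.trans (natPiPart_dvd _ _)
  refine ⟨by omega, dvd_sub_one_of_dvd hl (by omega) h0 h2, fun h3 => ?_⟩
  have : Fact l.Prime := ⟨hl⟩
  have h4 : (p : ZMod l) ^ 1 = 1 := by
    have h5 := (ZMod.natCast_eq_zero_iff _ _).mpr h3
    rw [Nat.cast_sub (by omega), Nat.cast_one, sub_eq_zero] at h5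
    rw [h5, one_pow]
  have := Nat.le_of_dvd one_pos ((isPrimitiveRoot_of_dvd h0 h2).dvd_of_pow_eq_one _ h4)
  omega

theorem cyc_le {p d : ℕ} (hp : 2 < p) (hodd : Odd p) (hd : 2 < d) :
    (p - 1) ^ d.totient < d * natPiPart {l | l ≤ d}ᶜ (cyc d p) := by
  have h0 := lt_cyc (n := d) (q := p) (by omega) (by omega)
  refine h0.trans_le ?_
  conv_lhs => rw [← natPiPart_mul_natPiPart_compl {l | l ≤ d} (show cyc d p ≠ 0 by omega)]
  exact Nat.mul_le_mul_right _ (Nat.le_of_dvd (by omega) (small_dvd hd (by omega) hodd))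

theorem three_parts {p a R : ℕ} (h3 : 3 ≤ p) (ha : 1 ≤ a) (hR0 : R ≠ 0)
    (hl : ∀ l, l.Prime → l ∣ R → ¬ l ∣ p - 1 ∧ (l = a + 1 ∨ l = 2 * a + 1 ∨ 2 * a + 1 < l))
    (hcon : ¬ ∃ m, m ∣ R ∧ Good2 p a m) : R ≤ a * p * (a * p * (a * p)) ∧
      ((¬ (a + 1).Prime ∨ ¬ a + 1 ∣ R) ∨ ¬ (2 * a + 1).Prime → R ≤ a * p * (a * p)) := by
  have hb : a * (p - 3) + 1 ≤ a * p := by
    obtain ⟨s, rfl⟩ : ∃ s, p = s + 3 := ⟨p - 3, by omega⟩
    rw [Nat.add_sub_cancel]; nlinarith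
  have key : ∀ r S, a < r → S ∣ R → natPiPart {r} S ≤ a * p ∧
      (¬ r.Prime ∨ ¬ r ∣ R → natPiPart {r} S = 1) := fun r S hr hS => by
    have h1 : ¬ r.Prime ∨ ¬ r ∣ R ∨ r ∣ p - 1 → natPiPart {r} S = 1 := fun h => by
      by_contra h2
      obtain ⟨l, hl', hlS⟩ := Nat.exists_prime_and_dvd h2
      obtain rfl : l = r := isPiNumber_natPiPart _ _ l hl' hlS
      have h4 := hlS.trans ((natPiPart_dvd _ _).trans hS)
      rcases h with h | h | h
      exacts [h hl', h h4, (hl l hl' h4).1 h]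
    refine ⟨?_, fun h => h1 (h.imp_right Or.inl)⟩
    by_contra h2
    refine hcon ⟨natPiPart {r} S, (natPiPart_dvd _ _).trans hS, by omega,
      Or.inr ⟨r, ?_, hr, fun h => ?_, isPiNumber_natPiPart _ _⟩⟩
    · by_contra h; have := h1 (Or.inl h); omega
    · have := h1 (Or.inr (Or.inr h)); omega
  obtain ⟨S, hS⟩ : ∃ S, S = natPiPart {a + 1}ᶜ R := ⟨_, rfl⟩
  have hS0 : S ≠ 0 := hS ▸ natPiPart_ne_zero _ _
  have hSR : S ∣ R := hS ▸ natPiPart_dvd _ _
  obtain ⟨hX, hX'⟩ := key (a + 1) R (by omega) dvd_rfl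
  obtain ⟨hY, hY'⟩ := key (2 * a + 1) S (by omega) hSR
  have hZ : natPiPart {2 * a + 1}ᶜ S ≤ a * p := by
    by_contra h2
    refine hcon ⟨natPiPart {2 * a + 1}ᶜ S, (natPiPart_dvd _ _).trans hSR, by omega,
      Or.inl fun l hl' hlS => ?_⟩
    have h3 : l ≠ 2 * a + 1 := isPiNumber_natPiPart _ _ l hl' hlS
    have h4 := hlS.trans (natPiPart_dvd _ _)
    have h5 : l ≠ a + 1 := isPiNumber_natPiPart _ _ l hl' (hS ▸ h4)
    exact ((hl l hl' (h4.trans hSR)).2.resolve_left h5).resolve_left h3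
  have e : R = natPiPart {a + 1} R * (natPiPart {2 * a + 1} S * natPiPart {2 * a + 1}ᶜ S) := by
    rw [natPiPart_mul_natPiPart_compl _ hS0, hS, natPiPart_mul_natPiPart_compl _ hR0]
  refine ⟨e.le.trans (Nat.mul_le_mul hX (Nat.mul_le_mul hY hZ)), fun h => e.le.trans ?_⟩
  rcases h with h | h
  · rw [hX' h, one_mul]; exact Nat.mul_le_mul hY hZ
  · rw [hY' (Or.inl h), one_mul]; exact Nat.mul_le_mul hX hZ

theorem good2_cyc {p a d : ℕ} (hp : p.Prime) (h7 : 7 ≤ p) (ha : 5 ≤ a) (hd : d = a ∨ d = 2 * a)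
    (h : 4 * a ^ 4 ≤ (p - 1) ^ (d.totient - 3) ∧ 3 ≤ d.totient ∨
      (d = 2 * a ∨ ¬ (a + 1).Prime ∨ ¬ (2 * a + 1).Prime) ∧ a ≤ 12 ∧ 80 ≤ p ∧ 4 ≤ d.totient) :
    ∃ m, m ∣ cyc d p ∧ Good2 p a m := by
  by_contra hcon
  have h0 := cyc_le (p := p) (d := d) (by omega) (hp.odd_of_ne_two (by omega)) (by omega)
  have hl := fun l => prime_facts (p := p) (d := d) (l := l) (by omega) (by omega)
  obtain ⟨hA, hB⟩ := three_parts (p := p) (a := a) (by omega) (by omega)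
    (natPiPart_ne_zero {l | l ≤ d}ᶜ (cyc d p))
    (fun l hl' h => by
      obtain ⟨h6, h8, h9⟩ := hl l hl' h
      obtain ⟨t, ht⟩ : a ∣ l - 1 := Dvd.dvd.trans (by rcases hd with rfl | rfl <;> simp) h8
      refine ⟨h9, ?_⟩
      rcases t with _ | _ | _ | t
      · omega
      · omega
      · omega
      · have : a * 3 ≤ a * (t + 1 + 1 + 1) := Nat.mul_le_mul_left _ (by omega)
        omega)
    fun ⟨m, h1, h2⟩ => hcon ⟨m, h1.trans (natPiPart_dvd _ _), h2⟩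
  have hd2 : d ≤ 2 * a := by omega
  rcases h with ⟨h1, h2⟩ | ⟨h1, h2, h3, h4⟩
  · have h5 : p ^ 3 ≤ 2 * (p - 1) ^ 3 := by
      obtain ⟨s, rfl⟩ : ∃ s, p = s + 7 := ⟨p - 7, by omega⟩
      rw [show s + 7 - 1 = s + 6 by omega]; nlinarith [Nat.zero_le (s ^ 2), Nat.zero_le (s ^ 3)]
    have h6 := h0.trans_le (Nat.mul_le_mul hd2 hA)
    rw [show d.totient = d.totient - 3 + 3 by omega, pow_add] at h6
    have h8 : 2 * a * (a * p * (a * p * (a * p))) ≤ (p - 1) ^ (d.totient - 3) * (p - 1) ^ 3 :=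
      calc _ = 2 * a ^ 4 * p ^ 3 := by ring
        _ ≤ 2 * a ^ 4 * (2 * (p - 1) ^ 3) := Nat.mul_le_mul_left _ h5
        _ = 4 * a ^ 4 * (p - 1) ^ 3 := by ring
        _ ≤ _ := Nat.mul_le_mul_right _ h1
    omega
  · have h5 := h0.trans_le (Nat.mul_le_mul hd2 (hB (by
      rcases h1 with h | h | h
      · by_cases h5 : (a + 1).Prime
        · exact Or.inl (Or.inr fun h6 => by have := (hl _ h5 h6).1; omega)
        · exact Or.inl (Or.inl h5)
      · exact Or.inl (Or.inl h)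
      · exact Or.inr h)))
    have h6 : (p - 1) ^ 4 ≤ (p - 1) ^ d.totient := Nat.pow_le_pow_right (by omega) h4
    have h8 : 2 * a * (a * p * (a * p)) ≤ 3456 * p ^ 2 :=
      calc _ = 2 * a ^ 3 * p ^ 2 := by ring
        _ ≤ 2 * 12 ^ 3 * p ^ 2 :=
          Nat.mul_le_mul_right _ (Nat.mul_le_mul_left _ (Nat.pow_le_pow_left h2 3))
        _ = _ := by norm_num
    have h9 := (h6.trans_lt h5).trans_le h8
    obtain ⟨s, rfl⟩ : ∃ s, p = s + 80 := ⟨p - 80, by omega⟩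
    rw [show s + 80 - 1 = s + 79 by omega] at h9
    nlinarith [Nat.zero_le (s ^ 2), Nat.zero_le (s ^ 3), Nat.zero_le (s ^ 4)]

theorem cyc_two_mul_dvd {a p : ℕ} (ha : 0 < a) (hp : 1 < p) : cyc (2 * a) p ∣ p ^ a + 1 := by
  have := cyc_dvd_geom (d := a) (e := 2) (q := p) ha one_lt_two hp
  rw [mul_comm, Finset.sum_range_succ, Finset.sum_range_one, pow_zero, pow_one, add_comm] at this
  exact_mod_cast this

theorem good2_six {p : ℕ} (hp : p.Prime) (h : 4000 ≤ p) : ∃ m, m ∣ p ^ 6 - 1 ∧ Good2 p 6 m := by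
  by_contra hcon
  have hodd := hp.odd_of_ne_two (by omega)
  have h3 := cyc_le (p := p) (d := 3) (by omega) hodd (by omega)
  have h6 := cyc_le (p := p) (d := 6) (by omega) hodd (by omega)
  have hA := (three_parts (p := p) (a := 6) (by omega) (by omega)
    (mul_ne_zero (natPiPart_ne_zero {l | l ≤ 3}ᶜ (cyc 3 p))
      (natPiPart_ne_zero {l | l ≤ 6}ᶜ (cyc 6 p)))
    (fun l hl h => by
      have h1 : 3 < l ∧ 3 ∣ l - 1 ∧ ¬ l ∣ p - 1 := by
        rcases hl.dvd_mul.mp h with h | h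
        · exact prime_facts (by omega) (by omega) hl h
        · have := prime_facts (by omega) (by omega) hl h
          exact ⟨by omega, by omega, this.2.2⟩
      have h4 : l ≠ 4 := fun h => absurd (h ▸ hl) (by norm_num)
      have h10 : l ≠ 10 := fun h => absurd (h ▸ hl) (by norm_num)
      exact ⟨h1.2.2, by omega⟩)
    fun ⟨m, h1, h2⟩ => hcon ⟨m, h1.trans (by
      rw [show p ^ 6 - 1 = (p ^ 3) ^ 2 - 1 ^ 2 by ring_nf, Nat.sq_sub_sq, mul_comm]
      exact mul_dvd_mul ((natPiPart_dvd _ _).trans (cyc_two_mul_dvd (a := 3) (by omega) (by omega)))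
        ((natPiPart_dvd _ _).trans (cyc_dvd 3 (by omega)))), h2⟩).1
  rw [show Nat.totient 3 = 2 by decide] at h3
  rw [show Nat.totient 6 = 2 by decide] at h6
  have h9 := Nat.mul_lt_mul'' h3 h6
  rw [mul_mul_mul_comm] at h9
  have h10 := h9.trans_le (Nat.mul_le_mul_left _ hA)
  obtain ⟨s, rfl⟩ : ∃ s, p = s + 4000 := ⟨p - 4000, by omega⟩
  rw [show s + 4000 - 1 = s + 3999 by omega] at h10
  nlinarith [Nat.zero_le (s ^ 2), Nat.zero_le (s ^ 3), Nat.zero_le (s ^ 4)]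

theorem pow_ge_aux2 {b c : ℕ} (hb : 4 ≤ b) (hc : 8 ≤ c) (h : 64 * c ^ 8 ≤ b ^ (c - 3)) {f : ℕ}
    (hf : c ≤ f) : 64 * f ^ 8 ≤ b ^ (f - 3) := by
  induction f, hf using Nat.le_induction with
  | base => exact h
  | succ f hf ih =>
    have h1 : (f + 1) ^ 8 ≤ 4 * f ^ 8 := by
      have h2 : 8 * (f + 1) ≤ 9 * f := by omega
      have h3 := Nat.pow_le_pow_left h2 8
      rw [mul_pow, mul_pow] at h3
      norm_num at h3
      omega
    rw [show f + 1 - 3 = f - 3 + 1 by omega, pow_succ]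
    calc 64 * (f + 1) ^ 8 ≤ 64 * f ^ 8 * 4 := by omega
      _ ≤ _ := Nat.mul_le_mul ih hb

theorem totient_small2 : ∀ a ≤ 98, 5 ≤ a → a.totient ≤ 7 → a ≤ 18 ∧ (a.totient = 6 ∨ a = 6 ∨
    a ≤ 12 ∧ 4 ≤ a.totient ∧ (¬ (a + 1).Prime ∨ ¬ (2 * a + 1).Prime)) := by
  have h : ∀ a ≤ 98, 5 ≤ a → a.totient ≤ 7 → a ≤ 18 ∧ (a.totient = 6 ∨ a ∈ [6, 5, 8, 10, 12]) := by
    decide +kernel
  intro a h1 h2 h3
  refine ⟨(h a h1 h2 h3).1, (h a h1 h2 h3).2.imp_right fun h4 => ?_⟩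
  simp only [List.mem_cons, List.not_mem_nil, or_false] at h4
  rcases h4 with rfl | rfl | rfl | rfl | rfl
  · exact Or.inl rfl
  all_goals exact Or.inr ⟨by norm_num, by decide, by norm_num⟩

theorem mem_primes2 {p : ℕ} (hp : p.Prime) (h7 : 7 ≤ p) (h : p < 80) :
    p ∈ [7, 11, 13, 17, 19, 23, 29, 31, 37, 41, 43, 47, 53, 59, 61, 67, 71, 73, 79] := by
  interval_cases p <;> first | decide | exact absurd hp (by norm_num)

theorem exists_good2 {p a D : ℕ} (hp : p.Prime) (h7 : 7 ≤ p) (ha : 5 ≤ a)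
    (hD : D = p ^ a - 1 ∨ D = p ^ a + 1) : ∃ m, m ∣ D ∧ Good2 p a m := by
  by_cases hs : p < 80 ∧ a ≤ 648
  · have h1 := chk2_all
    rw [List.all_eq_true] at h1
    have h2 := h1 a (List.mem_range.mpr (by omega))
    rw [Bool.or_eq_true, List.all_eq_true] at h2
    have h3 := h2.resolve_left (by simpa using ha) p (mem_primes2 hp h7 hs.1)
    simp only [Bool.and_eq_true, Bool.or_eq_true, beq_iff_eq] at h3
    rcases hD with rfl | rfl
    · rcases h3.1 with ⟨rfl, rfl⟩ | h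
      · exact ⟨13 ^ 2, by norm_num, by norm_num, Or.inr ⟨13, by norm_num, by norm_num, by norm_num,
          fun l hl h => (Nat.prime_dvd_prime_iff_eq hl (by norm_num)).mp (hl.dvd_of_dvd_pow h)⟩⟩
      · exact good2_of_chk2 h
    · exact good2_of_chk2 h3.2
  obtain ⟨d, hd, hdD, h6⟩ : ∃ d, (d = a ∨ d = 2 * a) ∧ cyc d p ∣ D ∧
      (d = 2 * a ∨ D = p ^ a - 1) := by
    rcases hD with rfl | rfl
    · exact ⟨a, Or.inl rfl, cyc_dvd a (by omega), Or.inr rfl⟩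
    · exact ⟨2 * a, Or.inr rfl, cyc_two_mul_dvd (by omega) (by omega), Or.inl rfl⟩
  have hφ := (le_two_mul_totient_sq a).1
  have hle : a.totient ≤ d.totient := Nat.le_of_dvd (Nat.totient_pos.mpr (by omega))
    (Nat.totient_dvd_of_dvd (by rcases hd with rfl | rfl <;> simp))
  have hfin : (4 * a ^ 4 ≤ (p - 1) ^ (d.totient - 3) ∧ 3 ≤ d.totient ∨
      (d = 2 * a ∨ ¬ (a + 1).Prime ∨ ¬ (2 * a + 1).Prime) ∧ a ≤ 12 ∧ 80 ≤ p ∧ 4 ≤ d.totient) →
      ∃ m, m ∣ D ∧ Good2 p a m := fun h => by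
    obtain ⟨m, h1, h2⟩ := good2_cyc hp h7 ha hd h
    exact ⟨m, h1.trans hdD, h2⟩
  have h1 : 4 * a ^ 4 ≤ 64 * a.totient ^ 8 := by
    have := Nat.pow_le_pow_left hφ 4
    rw [mul_pow, ← pow_mul] at this
    norm_num at this
    omega
  have hmono : ∀ {b}, b ≤ p - 1 → b ^ (a.totient - 3) ≤ (p - 1) ^ (d.totient - 3) := fun h =>
    (Nat.pow_le_pow_left h _).trans (Nat.pow_le_pow_right (by omega) (by omega))
  by_cases hp80 : p < 80
  · have h2 : 19 ≤ a.totient := by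
      by_contra h
      have := Nat.pow_le_pow_left (show a.totient ≤ 18 by omega) 2
      omega
    exact hfin (Or.inl ⟨h1.trans ((pow_ge_aux2 (b := 6) (by norm_num) (by norm_num) (by norm_num)
      h2).trans (hmono (by omega))), by omega⟩)
  by_cases h2 : 8 ≤ a.totient
  · exact hfin (Or.inl ⟨h1.trans ((pow_ge_aux2 (b := 79) (by norm_num) le_rfl (by norm_num)
      h2).trans (hmono (by omega))), by omega⟩)
  obtain ⟨h3, h4 | rfl | ⟨h4, h5, h8⟩⟩ := totient_small2 a (by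
    have := Nat.pow_le_pow_left (show a.totient ≤ 7 by omega) 2
    omega) ha (by omega)
  · refine hfin (Or.inl ⟨le_trans ?_ (hmono (b := 79) (by omega)), by omega⟩)
    rw [h4]
    exact (Nat.mul_le_mul_left 4 (Nat.pow_le_pow_left h3 4)).trans (by norm_num)
  · rcases h6 with rfl | rfl
    · exact hfin (Or.inr ⟨Or.inl rfl, by omega, by omega, by decide⟩)
    by_cases h650 : p < 4000
    · have h1 := chk2_six
      rw [List.all_eq_true] at h1
      have h2 := h1 p (List.mem_range.mpr h650)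
      rw [Bool.or_eq_true] at h2
      exact good2_of_chk2 (h2.resolve_left (by simpa using hp80))
    exact good2_six hp (by omega)
  · exact hfin (Or.inr ⟨Or.inr h8, h4, by omega, by omega⟩)

end Cfsg.CycBig

set_option linter.all false in
theorem Cfsg.Rz.Alg_CycloTwo_0 : True := by
  have := @_root_.Cfsg.CycBig.Good2.eq_def
  have := @_root_.Cfsg.CycBig.Good2.eq_1
  have := @_root_.Cfsg.CycBig.Good2.fun_cases
  have := @_root_.Cfsg.CycBig.chk2.eq_def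
  have := @_root_.Cfsg.CycBig.chk2.fun_cases
  trivial
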